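import Cfsg.Agent.H643.Sd.Def
import Cfsg.Agent.S4623
import Mathlib

/-!
# S4579: tools for `Elem` (helper567)

* `elem_of_sylow`, `elem_congr`, `elem_of_odd_index`, `elem_of_split`;
* `elem_alt` : the alternating groups (S4623);
* `elem_of_perm` : a group acting faithfully on `n` points, of order `n! / 2`.
-/

set_option autoImplicit false

namespace Cfsg.Agent.H567.Sd

open Subgroup Cfsg
open Cfsg.Agent.H643.Sd

theorem lin2_congr {P Q : Type*} [Group P] [Group Q] (e : P ≃* Q) (h : Lin2 P) : Lin2 Q := by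
  intro f x
  have h1 := h (f.comp e.toMonoidHom) (e.symm x)
  simpa using h1

theorem elem_of_sylow {G : Type*} [Group G] [Finite G] (P : Sylow 2 G) (h : Lin2 (P : Subgroup G)) : Elem G := by
  intro Q
  have : Fact (Nat.Prime 2) := ⟨Nat.prime_two⟩
  exact lin2_congr (Sylow.equiv P Q) h

/-- A 2-subgroup of odd index is enough. -/
theorem elem_of_subgroup {G : Type*} [Group G] [Finite G] (P : Subgroup G) (hP : IsPGroup 2 P) (hi : ¬ 2 ∣ P.index)
    (h : Lin2 P) : Elem G := by
  have : Fact (Nat.Prime 2) := ⟨Nat.prime_two⟩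
  exact elem_of_sylow (hP.toSylow hi) h

theorem elem_congr {G H : Type*} [Group G] [Group H] [Finite G] (e : G ≃* H) (h : Elem G) : Elem H := by
  have : Fact (Nat.Prime 2) := ⟨Nat.prime_two⟩
  have : Finite H := Finite.of_equiv _ e.toEquiv
  obtain ⟨P⟩ : Nonempty (Sylow 2 G) := inferInstance
  refine elem_of_sylow (P.mapSurjective (f := e.toMonoidHom) e.surjective) ?_
  exact lin2_congr ((P : Subgroup G).equivMapOfInjective e.toMonoidHom e.injective) (h P)

theorem elem_of_odd_index {G : Type*} [Group G] [Finite G] (H : Subgroup G) (hH : ¬ 2 ∣ H.index) (h : Elem H) :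
    Elem G := by
  have : Fact (Nat.Prime 2) := ⟨Nat.prime_two⟩
  obtain ⟨R⟩ : Nonempty (Sylow 2 H) := inferInstance
  refine elem_of_subgroup ((R : Subgroup H).map H.subtype) (R.isPGroup'.map _) ?_
    (lin2_congr ((R : Subgroup H).equivMapOfInjective H.subtype H.subtype_injective) (h R))
  rw [Subgroup.index_map_subtype, Nat.prime_two.dvd_mul]
  rintro (h1 | h1)
  · exact R.not_dvd_index h1
  · exact hH h1

/-- `G = E X` with an elementary abelian normal subgroup `E`. -/
theorem elem_of_split {G : Type*} [Group G] [Finite G] (E X : Subgroup G) [hEn : E.Normal]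
    (hE : ∀ e ∈ E, e * e = 1) (hX : ∀ g : G, ∃ e ∈ E, ∃ x ∈ X, g = e * x) (h : Elem X) : Elem G := by
  have : Fact (Nat.Prime 2) := ⟨Nat.prime_two⟩
  obtain ⟨R⟩ : Nonempty (Sylow 2 X) := inferInstance
  set φ : X →* G ⧸ E := (QuotientGroup.mk' E).comp X.subtype with hφ
  have hs : Function.Surjective φ := by
    intro y
    obtain ⟨g, rfl⟩ := QuotientGroup.mk'_surjective E y
    obtain ⟨e, he, x, hx, rfl⟩ := hX g
    refine ⟨⟨x, hx⟩, ?_⟩
    rw [hφ, MonoidHom.comp_apply, map_mul]
    rw [show (QuotientGroup.mk' E) e = 1 from (QuotientGroup.eq_one_iff e).2 he, one_mul]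
    rfl
  have hpE : IsPGroup 2 E := fun e => ⟨1, Subtype.ext (by rw [pow_one, pow_two]; exact hE e e.2)⟩
  set Q : Subgroup G := ((R.mapSurjective hs : Sylow 2 (G ⧸ E)) : Subgroup (G ⧸ E)).comap (QuotientGroup.mk' E) with hQ
  have hQp : IsPGroup 2 Q := (R.mapSurjective hs).isPGroup'.comap_of_ker_isPGroup _ (by
    rw [QuotientGroup.ker_mk']
    exact hpE)
  have hQi : ¬ 2 ∣ Q.index := by
    rw [hQ, Subgroup.index_comap_of_surjective _ (QuotientGroup.mk'_surjective E)]
    exact (R.mapSurjective hs).not_dvd_index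
  refine elem_of_subgroup Q hQp hQi ?_
  have hEQ : E ≤ Q := by
    intro e he
    rw [hQ, mem_comap, show (QuotientGroup.mk' E) e = 1 from (QuotientGroup.eq_one_iff e).2 he]
    exact one_mem _
  have hRQ : ∀ r : X, r ∈ (R : Subgroup X) → (r : G) ∈ Q := by
    intro r hr
    rw [hQ, mem_comap]
    exact ⟨r, hr, rfl⟩
  intro f x
  obtain ⟨r, hr, hrx⟩ : ∃ r : X, r ∈ (R : Subgroup X) ∧ φ r = QuotientGroup.mk' E x := by
    obtain ⟨r, hr, hrx⟩ := (show QuotientGroup.mk' E (x : G) ∈ (R : Subgroup X).map φ from x.2)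
    exact ⟨r, hr, hrx⟩
  have h1 : (x : G) * (r : G)⁻¹ ∈ E := by
    have h2 : QuotientGroup.mk' E ((x : G) * (r : G)⁻¹) = 1 := by
      rw [map_mul, map_inv, ← hrx]
      exact mul_inv_cancel _
    exact (QuotientGroup.eq_one_iff _).1 h2
  let ι : (R : Subgroup X) →* Q :=
    { toFun := fun r => ⟨(r : X), hRQ r r.2⟩
      map_one' := rfl
      map_mul' := fun _ _ => rfl }
  have h2 : x = ⟨(x : G) * (r : G)⁻¹, hEQ h1⟩ * ⟨(r : G), hRQ r hr⟩ := Subtype.ext (by simp)
  rw [h2, map_mul, mul_pow, ← map_pow, pow_two (⟨(x : G) * (r : G)⁻¹, hEQ h1⟩ : Q),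
    show (⟨(x : G) * (r : G)⁻¹, hEQ h1⟩ : Q) * ⟨(x : G) * (r : G)⁻¹, hEQ h1⟩ = 1 from Subtype.ext (hE _ h1), map_one,
    one_mul]
  exact h R (f.comp ι) ⟨r, hr⟩

theorem elem_alt (n : ℕ) : Elem (alternatingGroup (Fin n)) := by
  intro Q f x
  have : Fact (Nat.Prime 2) := ⟨Nat.prime_two⟩
  obtain ⟨P⟩ : Nonempty (Sylow 2 (Equiv.Perm (Fin n))) := inferInstance
  have h := (S4623.result 2 n P Q).2 x
  rw [← map_pow]
  exact Abelianization.commutator_subset_ker f h

/-- A group of order `n! / 2` which acts faithfully on `n` points. -/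
theorem elem_of_perm {G : Type*} [Group G] [Finite G] {n : ℕ} (hn : 2 * Nat.card G = n.factorial)
    (ρ : G →* Equiv.Perm (Fin n)) (hρ : Function.Injective ρ) : Elem G := by
  have h1 : Nat.card ρ.range = Nat.card G := Nat.card_congr (MonoidHom.ofInjective hρ).toEquiv.symm
  have h2 : Nat.card (Equiv.Perm (Fin n)) = n.factorial := by
    rw [Nat.card_eq_fintype_card, Fintype.card_perm, Fintype.card_fin]
  have h3 : ρ.range.index = 2 := by
    have h4 := ρ.range.card_mul_index
    rw [h1, h2, ← hn] at h4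
    have hpos : 0 < Nat.card G := Nat.card_pos
    rw [mul_comm] at h4
    exact Nat.eq_of_mul_eq_mul_right hpos h4
  have h5 : ρ.range = alternatingGroup (Fin n) := Equiv.Perm.eq_alternatingGroup_of_index_eq_two h3
  have e : G ≃* alternatingGroup (Fin n) := (MonoidHom.ofInjective hρ).trans (MulEquiv.subgroupCongr h5)
  exact elem_congr e.symm (elem_alt n)

end Cfsg.Agent.H567.Sd
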